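import Cfsg.Agent.H380.Cod.Lift
import Cfsg.Agent.H417.TorFalse

/-!
# The datum `φ : A × (B × Z) →* G` of a cyclic torus in a central extension (helper380, S3539)
-/

set_option autoImplicit false

namespace Cfsg.Agent.H380.Cod.TorB

open Cfsg Subgroup Cfsg.Agent.H417.TorRow Cfsg.Agent.H380.Cod.Lift

universe u v

variable {G : Type u} [Group G]

theorem card_mzmod (n : ℕ) : Nat.card (Multiplicative (ZMod n)) = n := by
  rw [Nat.card_congr Multiplicative.toAdd, Nat.card_zmod]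

theorem eq_one_of_coprime {x : G} {m k : ℕ} (h1 : x ^ m = 1) (h2 : x ^ k = 1) (h : m.Coprime k) : x = 1 := by
  have h3 := Nat.dvd_gcd (orderOf_dvd_of_pow_eq_one h1) (orderOf_dvd_of_pow_eq_one h2)
  rw [h] at h3
  exact orderOf_eq_one_iff.1 (Nat.dvd_one.1 h3)

/-- the inclusion of a cyclic group -/
theorem exists_emb {x : G} {n : ℕ} (hn : n ≠ 0) (hx : orderOf x = n) :
    ∃ f : Multiplicative (ZMod n) →* G, Function.Injective f ∧ ∀ a, f a ∈ zpowers x := by
  have : Finite (zpowers x) := Nat.finite_of_card_ne_zero (by rw [Nat.card_zpowers, hx]; exact hn)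
  let α : Multiplicative (ZMod n) ≃* zpowers x :=
    mulEquivOfCyclicCardEq (by rw [card_mzmod, Nat.card_zpowers, hx])
  exact ⟨(zpowers x).subtype.comp α.toMonoidHom, (zpowers x).subtype_injective.comp α.injective, fun a => (α a).2⟩

variable [Finite G] {L : Type v} [Group L] [Finite L] {M : Subgroup G} [M.Normal]

/-- **The datum.** -/
theorem exists_datum (e : G ⧸ M ≃* L) (hM : M ≤ center G) (hM2 : Nat.card ↥M = 2) {T : Subgroup L} (hT : IsCyclic ↥T)
    {n b : ℕ} (hcard : Nat.card ↥T = n * b) (hodd : Odd (n * b)) (hnb : n.Coprime b)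
    (hc : ∀ r : ℕ, r.Prime → r ∣ n → ∀ y ∈ T, orderOf y = r → centralizer {y} ≤ T) :
    ∃ φ : Multiplicative (ZMod n) × (Multiplicative (ZMod b) × Multiplicative (ZMod 2)) →* G, Tor φ ∧
      ∀ z : Multiplicative (ZMod 2), φ (1, (1, z)) ∈ M := by
  have hn0 : n ≠ 0 := by
    rintro rfl
    rw [zero_mul] at hcard
    exact Nat.card_pos.ne' hcard
  have hb0 : b ≠ 0 := by
    rintro rfl
    rw [mul_zero] at hcard
    exact Nat.card_pos.ne' hcard
  have : NeZero n := ⟨hn0⟩
  have : NeZero b := ⟨hb0⟩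
  have hno : Odd n := (Nat.odd_mul.1 hodd).1
  have hbo : Odd b := (Nat.odd_mul.1 hodd).2
  -- the lift of a generator
  obtain ⟨⟨t, htT⟩, hgen⟩ := hT.exists_generator
  have hto : orderOf t = n * b := by
    rw [← hcard, ← orderOf_eq_card_of_forall_mem_zpowers hgen, Subgroup.orderOf_mk]
  obtain ⟨u, huo, hut⟩ := exists_lift e hM2 hodd hto
  have hx : orderOf (u ^ b) = n := by
    rw [orderOf_pow_of_dvd hb0 (by rw [huo]; exact dvd_mul_left b n), huo, Nat.mul_div_cancel _ (Nat.pos_of_ne_zero hb0)]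
  have hy : orderOf (u ^ n) = b := by
    rw [orderOf_pow_of_dvd hn0 (by rw [huo]; exact dvd_mul_right n b), huo,
      Nat.mul_div_cancel_left _ (Nat.pos_of_ne_zero hn0)]
  have : Fact (Nat.Prime 2) := ⟨Nat.prime_two⟩
  obtain ⟨⟨z0, hz0M⟩, hz0⟩ := exists_prime_orderOf_dvd_card' (G := ↥M) 2 (by rw [hM2])
  rw [Subgroup.orderOf_mk] at hz0
  obtain ⟨fA, hfA, hfA'⟩ := exists_emb hn0 hx
  obtain ⟨fB, hfB, hfB'⟩ := exists_emb hb0 hy
  obtain ⟨fZ, hfZ, hfZ'⟩ := exists_emb two_ne_zero hz0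
  have huC : u ∈ Cb e T := by rw [mem_Cb, hut]; exact htT
  have hAC : ∀ a, fA a ∈ Cb e T := fun a => (zpowers_le.2 (pow_mem huC b)) (hfA' a)
  have hBC : ∀ a, fB a ∈ Cb e T := fun a => (zpowers_le.2 (pow_mem huC n)) (hfB' a)
  have hZM : ∀ a, fZ a ∈ M := fun a => (zpowers_le.2 hz0M) (hfZ' a)
  have hZC : ∀ a, fZ a ∈ Cb e T := fun a => by
    rw [mem_Cb, (pr_eq_one e).2 (hZM a)]; exact one_mem T
  have cBZ : ∀ a c, Commute (fB a) (fZ c) := fun a c => comm_Cb e hM hT (hBC a) (hZC c)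
  let fBZ : Multiplicative (ZMod b) × Multiplicative (ZMod 2) →* G := MonoidHom.noncommCoprod fB fZ cBZ
  have hBZ : ∀ a c, fBZ (a, c) = fB a * fZ c := fun a c => rfl
  have hBZC : ∀ w, fBZ w ∈ Cb e T := fun w => by rw [← Prod.mk.eta (p := w), hBZ]; exact mul_mem (hBC _) (hZC _)
  have cA : ∀ a w, Commute (fA a) (fBZ w) := fun a w => comm_Cb e hM hT (hAC a) (hBZC w)
  let φ : Multiplicative (ZMod n) × (Multiplicative (ZMod b) × Multiplicative (ZMod 2)) →* G :=
    MonoidHom.noncommCoprod fA fBZ cA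
  have hφ : ∀ a w, φ (a, w) = fA a * fBZ w := fun a w => rfl
  -- exponents
  have ex : ∀ {m : ℕ} (f : Multiplicative (ZMod m) →* G) (a : Multiplicative (ZMod m)), (f a) ^ m = 1 := by
    intro m f a
    rw [← map_pow]
    have h1 : a ^ m = 1 := by
      have h2 : (m : ZMod m) = 0 := ZMod.natCast_self m
      show Multiplicative.ofAdd (m • a.toAdd) = 1
      rw [nsmul_eq_mul, h2, zero_mul]
      rfl
    rw [h1, map_one]
  have hwb : ∀ w, (fBZ w) ^ (2 * b) = 1 := by
    intro w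
    rw [← Prod.mk.eta (p := w), hBZ, (cBZ _ _).mul_pow, mul_comm 2 b, pow_mul, ex, one_pow, one_mul, mul_comm b 2,
      pow_mul, ex, one_pow]
  have hn2b : n.Coprime (2 * b) := Nat.Coprime.mul_right hno.coprime_two_right hnb
  have hinj : Function.Injective φ := by
    rw [injective_iff_map_eq_one]
    rintro ⟨a, w⟩ h
    rw [hφ] at h
    have h1 : fA a ^ (2 * b) = 1 := by
      have h2 := (cA a w).mul_pow (2 * b)
      rw [h, one_pow, hwb, mul_one] at h2
      exact h2.symm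
    have h2 : fA a = 1 := eq_one_of_coprime (ex fA a) h1 hn2b
    have h3 : a = 1 := hfA (by rw [h2, map_one])
    rw [h2, one_mul] at h
    obtain ⟨y, z⟩ := w
    rw [hBZ] at h
    have h4 : fB y ^ 2 = 1 := by
      have h5 := (cBZ y z).mul_pow 2
      rw [h, one_pow, ex fZ z, mul_one] at h5
      exact h5.symm
    have h5 : fB y = 1 := eq_one_of_coprime (ex fB y) h4 hbo.coprime_two_right
    have h6 : y = 1 := hfB (by rw [h5, map_one])
    rw [h5, one_mul] at h
    have h7 : z = 1 := hfZ (by rw [h, map_one])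
    rw [h3, h6, h7]
    rfl
  have hle : φ.range ≤ Cb e T := by
    rintro _ ⟨⟨a, w⟩, rfl⟩
    rw [hφ]
    exact mul_mem (hAC a) (hBZC w)
  have hrange : φ.range = Cb e T := by
    refine Subgroup.eq_of_le_of_card_ge hle ?_
    rw [card_Cb e hM2, hcard, ← Nat.card_congr (MonoidHom.ofInjective hinj).toEquiv, Nat.card_prod, Nat.card_prod,
      card_mzmod, card_mzmod, card_mzmod]
    exact le_of_eq (by ring)
  refine ⟨φ, ⟨hinj, ?_, ?_⟩, ?_⟩
  · intro a w ha g hg
    rw [hrange]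
    set q := fA a ^ (2 * b) with hq
    have hq1 : q ≠ 1 := by
      intro h
      exact ha (hfA (by rw [eq_one_of_coprime (ex fA a) h hn2b, map_one]))
    have hqn : q ^ n = 1 := by rw [hq, ← pow_mul, mul_comm, pow_mul, ex, one_pow]
    have hgq : Commute g q := by
      have h1 : Commute g (φ (a, w)) := hg
      have h2 := h1.pow_right (2 * b)
      rw [hφ, (cA a w).mul_pow, hwb, mul_one] at h2
      exact h2
    have ho : orderOf q ≠ 1 := fun h => hq1 (orderOf_eq_one_iff.1 h)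
    obtain ⟨r, hr, k, hk⟩ := Nat.exists_prime_and_dvd ho
    have hk0 : k ≠ 0 := by
      rintro rfl
      rw [mul_zero] at hk
      exact (orderOf_pos q).ne' hk
    have hyr : orderOf (q ^ k) = r := by
      rw [orderOf_pow_of_dvd hk0 ⟨r, by rw [hk, mul_comm]⟩, hk, Nat.mul_div_cancel _ (Nat.pos_of_ne_zero hk0)]
    have hrn : r ∣ n := (Dvd.intro _ hk.symm).trans (orderOf_dvd_of_pow_eq_one hqn)
    have hr2 : r ≠ 2 := by
      rintro rfl
      exact (Nat.not_even_iff_odd.2 hno) (even_iff_two_dvd.2 hrn)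
    refine cent_le e hM2 hr hr2 (hc r hr hrn) (y := q ^ k) (pow_mem (pow_mem (hAC a) _) _) hyr ?_
    rw [mem_centralizer_singleton_iff]
    exact hgq.pow_right k
  · rw [Group.isCyclic_prod_iff]
    refine ⟨inferInstance, ?_, ?_⟩
    · rw [Group.isCyclic_prod_iff]
      refine ⟨inferInstance, inferInstance, ?_⟩
      rw [card_mzmod, card_mzmod]
      exact hbo.coprime_two_right
    · rw [Nat.card_prod, card_mzmod, card_mzmod, card_mzmod, mul_comm b 2]
      exact hn2b
  · intro z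
    rw [hφ, hBZ, map_one, map_one, one_mul, one_mul]
    exact hZM z

end Cfsg.Agent.H380.Cod.TorB
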