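import Cfsg.Agent.H380.Cod.Par
import Cfsg.Agent.H380.Cod.TorB
import Cfsg.Agent.H850.Cod.Basic

/-!
# Central extensions by a group of order two, cyclic torus of odd order (helper380, S3539)

`central_two`: `S` has a cyclic subgroup `T` of odd order `n b`, `(n, b) = 1`, containing the centralisers of its elements
of prime order dividing `n`, and `|S| / |T| = w` mod `n` with `w = 2` mod 4 and `4 w (w + 1) < n`.  Then not all characters of
a central extension of `S` by a group `M` of order two which are nontrivial on `M` have degree twice a degree of `S`.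
-/

set_option autoImplicit false

namespace Cfsg.Agent.H380.Cod.Central

open Cfsg Subgroup Cfsg.Agent.Characters.Core Cfsg.Agent.H417.TorRow Cfsg.Agent.H417.TorCol Cfsg.Agent.H417.TorMain
  Cfsg.Agent.H686.CharKit Cfsg.Agent.H850.Cod Cfsg.Agent.H380.Cod.Lift

universe u v

theorem central_two {S : Type v} [Group S] {G : Type u} [Group G] [Finite G] (M : Subgroup G) [M.Normal]
    (e : G ⧸ M ≃* S) (hM : M ≤ center G) (hM2 : Nat.card M = 2) {T : Subgroup S} (hT : IsCyclic T) {n b X w : ℕ}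
    (hcard : Nat.card T = n * b) (hodd : Odd (n * b)) (hnb : n.Coprime b)
    (hc : ∀ r : ℕ, r.Prime → r ∣ n → ∀ y ∈ T, orderOf y = r → centralizer {y} ≤ T) (hS : Nat.card S = n * b * X)
    (hw : w % 4 = 2) (hX : (n : ℤ) ∣ (X : ℤ) - w) (hn : 4 * w * (w + 1) < n)
    (h : ∀ χ : IrrCharacter G, ¬ M ≤ chKer χ → ∃ d : ℕ, NDeg S d ∧ charDegree (χ : G → ℂ) = Nat.card M * d) :
    False := by
  classical
  have hSf : Finite S := Finite.of_equiv _ e.toEquiv
  obtain ⟨φ, hφ, hφM⟩ := TorB.exists_datum e hM hM2 hT hcard hodd hnb hc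
  have hn0 : n ≠ 0 := by omega
  have hb0 : b ≠ 0 := by
    rintro rfl
    rw [mul_zero] at hodd
    exact absurd hodd (by decide)
  have : NeZero n := ⟨hn0⟩
  have : NeZero b := ⟨hb0⟩
  have := Fintype.ofFinite G
  have hf1 : Finite (Multiplicative (ZMod n) →* ℂˣ) := inferInstance
  have := Fintype.ofFinite (Multiplicative (ZMod n) →* ℂˣ)
  have := Fintype.ofFinite (Multiplicative (ZMod b) × Multiplicative (ZMod 2) →* ℂˣ)
  obtain ⟨e1, he1⟩ := exists_e hφ
  have hA : Nat.card (Multiplicative (ZMod n)) = n := TorB.card_mzmod n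
  have hB : Nat.card (Multiplicative (ZMod b)) = b := TorB.card_mzmod b
  have hBZ : Nat.card (Multiplicative (ZMod b) × Multiplicative (ZMod 2)) = b * 2 := by
    rw [Nat.card_prod, hB, TorB.card_mzmod]
  have hno : Odd n := (Nat.odd_mul.1 hodd).1
  have hbo : Odd b := (Nat.odd_mul.1 hodd).2
  have hcop : Nat.Coprime (Nat.card (Multiplicative (ZMod n)))
      (Nat.card (Multiplicative (ZMod b) × Multiplicative (ZMod 2))) := by
    rw [hA, hBZ]
    exact Nat.Coprime.mul_right hnb hno.coprime_two_right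
  have hG : Nat.card G = X * (Nat.card (Multiplicative (ZMod n)) *
      Nat.card (Multiplicative (ZMod b) × Multiplicative (ZMod 2))) := by
    rw [Subgroup.card_eq_card_quotient_mul_card_subgroup M, hM2, Nat.card_congr e.toEquiv, hS, hA, hBZ]
    ring
  have hcnt := count hφ hcop he1 hG
  have hw1 : 2 ≤ w := by omega
  have hw0 : w < n := by
    have : w ≤ 4 * w * (w + 1) := by nlinarith
    omega
  have hlt := e_lt hφ he1 (by rw [hA]; omega)
  rw [hA] at hcnt hlt
  have hXw : X ≡ w [MOD n] := by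
    have h1 : (w : ℤ) ≡ X [ZMOD n] := Int.modEq_iff_dvd.2 hX
    exact ((Int.natCast_modEq_iff).1 h1).symm
  have he : e1 = w := Nat.ModEq.eq_of_lt_of_lt (hcnt.symm.trans hXw) hlt hw0
  subst he
  have hZ : ∀ z g, g * φ (1, (1, z)) = φ (1, (1, z)) * g := fun z g => mem_center_iff.1 (hM (hφM z)) g
  refine Par.false_of hφ hZ he1 hw (by rw [hA]; exact hn) (by rw [hB]; exact hbo) fun χ hχ => ?_
  have hker : ¬ M ≤ chKer χ := by
    intro hle
    have h1 := mem_chKer.1 (hle (hφM Par.z0))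
    have h2 := hχ 1
    rw [one_mul, h1] at h2
    have h3 : (2 : ℂ) * (χ : G → ℂ) 1 = 0 := by linear_combination h2
    rcases mul_eq_zero.1 h3 with h4 | h4
    · norm_num at h4
    · exact isIrr_apply_one_ne_zero χ.2 h4
  obtain ⟨d, ⟨θ, -, hθ⟩, hd⟩ := h χ hker
  refine ⟨⟨(θ : S → ℂ) ∘ (pr e), isIrr_comp (pr e) (pr_surj e) θ.2⟩, ?_⟩
  have h1 : ((charDegree (χ : G → ℂ) : ℕ) : ℂ) =
      ((2 * charDegree ((⟨(θ : S → ℂ) ∘ (pr e), isIrr_comp (pr e) (pr_surj e) θ.2⟩ : IrrCharacter G) : G → ℂ) : ℕ) : ℂ) := by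
    rw [Nat.cast_mul, charDegree_irr ⟨(θ : S → ℂ) ∘ (pr e), isIrr_comp (pr e) (pr_surj e) θ.2⟩, hd, hM2, Nat.cast_mul]
    congr 1
    show (d : ℂ) = (θ : S → ℂ) (pr e 1)
    rw [map_one, ← charDegree_irr θ, hθ]
  exact_mod_cast h1

end Cfsg.Agent.H380.Cod.Central
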