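import Cfsg.Agent.H137.TC7.NumE7
import Cfsg.Agent.S1064

/-!
# The numbers of the odd cyclic torus of `E₇(q)`, `q` odd (helper380, S3539)
-/

set_option autoImplicit false

namespace Cfsg.Agent.H380.Cod.ENum

open Cfsg Cfsg.Lie Cfsg.Agent.H137.TC7 Cfsg.Agent.H378.ExcAdj

universe u

/-- `1 + x + ... + x ^ 6 = 0` -/
theorem ring7 {R : Type*} [CommRing R] {x : R} (h : 1 + x + x ^ 2 + x ^ 3 + x ^ 4 + x ^ 5 + x ^ 6 = 0) :
    x ^ 63 * (x ^ 2 - 1) * (x ^ 6 - 1) * (x ^ 8 - 1) * (x ^ 10 - 1) * (x ^ 12 - 1) * (x ^ 7 + 1) * (x ^ 18 - 1) = 14 := by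
  have h7 : x ^ 7 = 1 := by linear_combination (x - 1) * h
  have e63 : x ^ 63 = 1 := by rw [show 63 = 7 * 9 from rfl, pow_mul, h7, one_pow]
  have e8 : x ^ 8 = x := by rw [show 8 = 7 + 1 from rfl, pow_add, h7, one_mul, pow_one]
  have e10 : x ^ 10 = x ^ 3 := by rw [show 10 = 7 + 3 from rfl, pow_add, h7, one_mul]
  have e12 : x ^ 12 = x ^ 5 := by rw [show 12 = 7 + 5 from rfl, pow_add, h7, one_mul]
  have e18 : x ^ 18 = x ^ 4 := by rw [show 18 = 7 + 7 + 4 from rfl, pow_add, pow_add, h7, one_mul, one_mul]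
  rw [e63, e8, e10, e12, e18, h7]
  linear_combination ((-12)*x^0 + (10)*x^1 + (2)*x^3 + (2)*x^5 + (-2)*x^6 + (-8)*x^7 + (6)*x^8 + (-2)*x^9 + (2)*x^10 + (2)*x^12 + (-4)*x^14 + (2)*x^15) * h

/-- `1 - x + ... + x ^ 6 = 0` -/
theorem ring14 {R : Type*} [CommRing R] {x : R} (h : 1 - x + x ^ 2 - x ^ 3 + x ^ 4 - x ^ 5 + x ^ 6 = 0) :
    x ^ 63 * (x ^ 2 - 1) * (x ^ 6 - 1) * (x ^ 8 - 1) * (x ^ 10 - 1) * (x ^ 12 - 1) * (x ^ 7 - 1) * (x ^ 18 - 1) = 14 := by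
  have h7 : x ^ 7 = -1 := by linear_combination (x + 1) * h
  have e63 : x ^ 63 = -1 := by
    rw [show 63 = 7 * 9 from rfl, pow_mul, h7]
    ring
  have e8 : x ^ 8 = -x := by rw [show 8 = 7 + 1 from rfl, pow_add, h7]; ring
  have e10 : x ^ 10 = -x ^ 3 := by rw [show 10 = 7 + 3 from rfl, pow_add, h7]; ring
  have e12 : x ^ 12 = -x ^ 5 := by rw [show 12 = 7 + 5 from rfl, pow_add, h7]; ring
  have e18 : x ^ 18 = x ^ 4 := by rw [show 18 = 7 + 7 + 4 from rfl, pow_add, pow_add, h7]; ring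
  rw [e63, e8, e10, e12, e18, h7]
  linear_combination ((-12)*x^0 + (-10)*x^1 + (-2)*x^3 + (-2)*x^5 + (-2)*x^6 + (8)*x^7 + (6)*x^8 + (2)*x^9 + (2)*x^10 + (2)*x^12 + (-4)*x^14 + (-2)*x^15) * h

theorem gcd_two {q : ℕ} (hq : Odd q) : Nat.gcd 2 (q - 1) = 2 := by
  rw [Nat.gcd_eq_left]
  obtain ⟨m, hm⟩ := hq
  exact ⟨m, by omega⟩

/-- `q ≡ 3` mod 4 -/
theorem case3 {F : Type u} [Field F] [Fintype F] {q : ℕ} (hF : Fintype.card F = q) (h4 : q % 4 = 3) :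
    Odd (tv q 0) ∧ 841 ≤ mv q 0 ∧ (∃ b, tv q 0 = mv q 0 * b ∧ (mv q 0).Coprime b) ∧
      ∃ X : ℕ, Nat.card ↥(chevE7.group F) = tv q 0 * X ∧ (mv q 0 : ℤ) ∣ (X : ℤ) - 14 := by
  have hq3 : 3 ≤ q := by omega
  have hodd : Odd q := Nat.odd_iff.2 (by omega)
  have hg := gcd_two hodd
  have hq7 : 1 ≤ q ^ 7 := Nat.one_le_pow _ _ (by omega)
  have hN : Nv q 0 = q ^ 7 - 1 := rfl
  have h2N : q ^ 7 % 4 = 3 := by
    rw [Nat.pow_mod, h4]
  have htv : 2 * tv q 0 = q ^ 7 - 1 := by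
    rw [tv, hg, hN]
    omega
  have hP : PN q 0 = 1 + q + q ^ 2 + q ^ 3 + q ^ 4 + q ^ 5 + q ^ 6 := rfl
  have hmul := mv_mul (show 1 ≤ q by omega) 0
  have hgv : gv q 0 = Nat.gcd 7 (q - 1) := rfl
  refine ⟨?_, ?_, ?_, ?_⟩
  · rw [Nat.odd_iff]
    omega
  · rcases (show q = 3 ∨ 7 ≤ q by omega) with h | h
    · subst h
      rw [mv, hP, hgv]
      norm_num
    · have h1 : gv q 0 ≤ 7 := by rw [hgv]; exact Nat.gcd_le_left _ (by norm_num)
      have h2 : 7 ^ 6 ≤ q ^ 6 := Nat.pow_le_pow_left h 6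
      have h3 : 7 ^ 6 ≤ PN q 0 := by rw [hP]; omega
      rw [← hmul] at h3
      by_contra hcon
      rw [not_le] at hcon
      have h4' : gv q 0 * mv q 0 ≤ 7 * 840 := Nat.mul_le_mul h1 (by omega)
      omega
  · -- the other factor
    obtain ⟨m, hm⟩ : ∃ m, q - 1 = 2 * m := by
      obtain ⟨m, hm⟩ := hodd
      exact ⟨m, by omega⟩
    refine ⟨m * gv q 0, ?_, ?_⟩
    · have h1 : 2 * tv q 0 = 2 * (mv q 0 * (m * gv q 0)) := by
        have h2 : q ^ 7 - 1 = (q - 1) * PN q 0 := by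
          rw [hP]
          zify [hq7, show 1 ≤ q by omega]
          ring
        rw [htv, h2, hm, ← hmul]
        ring
      omega
    · refine Nat.Coprime.mul_right ?_ ?_
      · refine Nat.Coprime.coprime_dvd_right (⟨2, by rw [hm]; ring⟩ : m ∣ q - 1) ?_
        rw [Nat.coprime_iff_gcd_eq_one]
        by_contra hne
        obtain ⟨r, hr, hrd⟩ := Nat.exists_prime_and_dvd hne
        have h1 := od_of_mv (by omega) hr (hrd.trans (Nat.gcd_dvd_left _ _))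
        have h2 := od_dvd (q := q) (r := r) (n := 1) (by omega) (by rw [pow_one]; exact hrd.trans (Nat.gcd_dvd_right _ _))
        rw [h1] at h2
        exact absurd h2 (by decide)
      · rw [hgv]
        refine Nat.Coprime.coprime_dvd_right (Nat.gcd_dvd_left 7 (q - 1)) ?_
        rw [Nat.coprime_comm, Nat.Prime.coprime_iff_not_dvd (by norm_num)]
        intro h7
        have h1 := r_ge (q := q) (r := 7) (i := 0) (by norm_num) (od_of_mv (by omega) (by norm_num) h7)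
        omega
  · refine ⟨q ^ 63 * (q ^ 2 - 1) * (q ^ 6 - 1) * (q ^ 8 - 1) * (q ^ 10 - 1) * (q ^ 12 - 1) * (q ^ 7 + 1) * (q ^ 18 - 1), ?_, ?_⟩
    · have h1 := Cfsg.Agent.S1064.result (F := F) hF
      rw [hg] at h1
      have h2 : q ^ 14 - 1 = (q ^ 7 - 1) * (q ^ 7 + 1) := by
        have : 1 ≤ q ^ 14 := Nat.one_le_pow _ _ (by omega)
        zify [hq7, this]
        ring
      rw [h2, ← htv] at h1
      have h3 : 2 * Nat.card ↥(chevE7.group F) = 2 * (tv q 0 * (q ^ 63 * (q ^ 2 - 1) * (q ^ 6 - 1) * (q ^ 8 - 1) *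
          (q ^ 10 - 1) * (q ^ 12 - 1) * (q ^ 7 + 1) * (q ^ 18 - 1))) := by
        rw [h1]
        ring
      exact Nat.eq_of_mul_eq_mul_left (by norm_num) h3
    · rw [← ZMod.intCast_zmod_eq_zero_iff_dvd]
      have hle : ∀ k, 1 ≤ q ^ k := fun k => Nat.one_le_pow _ _ (by omega)
      push_cast [Nat.cast_sub (hle 2), Nat.cast_sub (hle 6), Nat.cast_sub (hle 8), Nat.cast_sub (hle 10),
        Nat.cast_sub (hle 12), Nat.cast_sub (hle 18)]
      rw [ring7, sub_self]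
      have h1 : (mv q 0 : ℤ) ∣ 1 + (q : ℤ) + (q : ℤ) ^ 2 + (q : ℤ) ^ 3 + (q : ℤ) ^ 4 + (q : ℤ) ^ 5 + (q : ℤ) ^ 6 := by
        refine (Int.natCast_dvd_natCast.2 (Dvd.intro_left _ hmul)).trans ?_
        rw [hP]
        push_cast
        exact dvd_rfl
      rw [← ZMod.intCast_zmod_eq_zero_iff_dvd] at h1
      push_cast at h1
      exact h1

/-- `q ≡ 1` mod 4 -/
theorem case1 {F : Type u} [Field F] [Fintype F] {q : ℕ} (hF : Fintype.card F = q) (h4 : q % 4 = 1) (hq1 : 1 < q) :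
    Odd (tv q 2) ∧ 841 ≤ mv q 2 ∧ (∃ b, tv q 2 = mv q 2 * b ∧ (mv q 2).Coprime b) ∧
      ∃ X : ℕ, Nat.card ↥(chevE7.group F) = tv q 2 * X ∧ (mv q 2 : ℤ) ∣ (X : ℤ) - 14 := by
  have hq5 : 5 ≤ q := by omega
  have hodd : Odd q := Nat.odd_iff.2 (by omega)
  have hg := gcd_two hodd
  have hq7 : 1 ≤ q ^ 7 := Nat.one_le_pow _ _ (by omega)
  have hN : Nv q 2 = q ^ 7 + 1 := rfl
  have h2N : q ^ 7 % 4 = 1 := by
    rw [Nat.pow_mod, h4]
  have htv : 2 * tv q 2 = q ^ 7 + 1 := by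
    rw [tv, hg, hN]
    omega
  have hP : (PN q 2 : ℤ) = 1 - (q : ℤ) + (q : ℤ) ^ 2 - (q : ℤ) ^ 3 + (q : ℤ) ^ 4 - (q : ℤ) ^ 5 + (q : ℤ) ^ 6 :=
    PN_cast (by omega) 2
  have hmul := mv_mul (show 1 ≤ q by omega) 2
  have hgv : gv q 2 = Nat.gcd 7 (q + 1) := rfl
  have hNP : q ^ 7 + 1 = (q + 1) * PN q 2 := by
    zify
    rw [hP]
    ring
  refine ⟨?_, ?_, ?_, ?_⟩
  · rw [Nat.odd_iff]
    omega
  · have h1 : gv q 2 ≤ 7 := by rw [hgv]; exact Nat.gcd_le_left _ (by norm_num)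
    by_contra hcon
    rw [not_le] at hcon
    have h4' : PN q 2 ≤ 7 * 840 := by rw [← hmul]; exact Nat.mul_le_mul h1 (by omega)
    have h5 : q ^ 7 + 1 ≤ (q + 1) * (7 * 840) := by rw [hNP]; exact Nat.mul_le_mul_left _ h4'
    have h6 : q * 5 ^ 6 ≤ q * q ^ 6 := Nat.mul_le_mul_left _ (Nat.pow_le_pow_left hq5 6)
    have h7 : q * q ^ 6 = q ^ 7 := by ring
    rw [h7] at h6
    omega
  · obtain ⟨m, hm⟩ : ∃ m, q + 1 = 2 * m := by
      obtain ⟨m, hm⟩ := hodd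
      exact ⟨m + 1, by omega⟩
    refine ⟨m * gv q 2, ?_, ?_⟩
    · have h1 : 2 * tv q 2 = 2 * (mv q 2 * (m * gv q 2)) := by
        rw [htv, hNP, hm, ← hmul]
        ring
      omega
    · refine Nat.Coprime.mul_right ?_ ?_
      · refine Nat.Coprime.coprime_dvd_right (⟨2, by rw [hm]; ring⟩ : m ∣ q + 1) ?_
        rw [Nat.coprime_iff_gcd_eq_one]
        by_contra hne
        obtain ⟨r, hr, hrd⟩ := Nat.exists_prime_and_dvd hne
        have h1 := od_of_mv (by omega) hr (hrd.trans (Nat.gcd_dvd_left _ _))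
        have h3 : r ∣ q ^ 2 - 1 := by
          have h4 : q ^ 2 - 1 = (q + 1) * (q - 1) := by
            zify [hq1.le, Nat.one_le_pow 2 q (by omega)]
            ring
          rw [h4]
          exact (hrd.trans (Nat.gcd_dvd_right _ _)).mul_right _
        have h2 := od_dvd (q := q) (r := r) (n := 2) (by omega) h3
        rw [h1] at h2
        exact absurd h2 (by decide)
      · rw [hgv]
        refine Nat.Coprime.coprime_dvd_right (Nat.gcd_dvd_left 7 (q + 1)) ?_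
        rw [Nat.coprime_comm, Nat.Prime.coprime_iff_not_dvd (by norm_num)]
        intro h7
        have h1 := r_ge (q := q) (r := 7) (i := 2) (by norm_num) (od_of_mv (by omega) (by norm_num) h7)
        omega
  · refine ⟨q ^ 63 * (q ^ 2 - 1) * (q ^ 6 - 1) * (q ^ 8 - 1) * (q ^ 10 - 1) * (q ^ 12 - 1) * (q ^ 7 - 1) * (q ^ 18 - 1), ?_, ?_⟩
    · have h1 := Cfsg.Agent.S1064.result (F := F) hF
      rw [hg] at h1
      have h2 : q ^ 14 - 1 = (q ^ 7 + 1) * (q ^ 7 - 1) := by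
        have : 1 ≤ q ^ 14 := Nat.one_le_pow _ _ (by omega)
        zify [hq7, this]
        ring
      rw [h2, ← htv] at h1
      have h3 : 2 * Nat.card ↥(chevE7.group F) = 2 * (tv q 2 * (q ^ 63 * (q ^ 2 - 1) * (q ^ 6 - 1) * (q ^ 8 - 1) *
          (q ^ 10 - 1) * (q ^ 12 - 1) * (q ^ 7 - 1) * (q ^ 18 - 1))) := by
        rw [h1]
        ring
      exact Nat.eq_of_mul_eq_mul_left (by norm_num) h3
    · rw [← ZMod.intCast_zmod_eq_zero_iff_dvd]
      have hle : ∀ k, 1 ≤ q ^ k := fun k => Nat.one_le_pow _ _ (by omega)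
      push_cast [Nat.cast_sub (hle 2), Nat.cast_sub (hle 6), Nat.cast_sub (hle 8), Nat.cast_sub (hle 10),
        Nat.cast_sub (hle 12), Nat.cast_sub (hle 18), Nat.cast_sub (hle 7)]
      rw [ring14, sub_self]
      have h1 : (mv q 2 : ℤ) ∣ 1 - (q : ℤ) + (q : ℤ) ^ 2 - (q : ℤ) ^ 3 + (q : ℤ) ^ 4 - (q : ℤ) ^ 5 + (q : ℤ) ^ 6 := by
        refine (Int.natCast_dvd_natCast.2 (Dvd.intro_left _ hmul)).trans ?_
        rw [hP]
      rw [← ZMod.intCast_zmod_eq_zero_iff_dvd] at h1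
      push_cast at h1
      exact h1

end Cfsg.Agent.H380.Cod.ENum
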