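import Cfsg.Agent.H380.Cod.Central
import Cfsg.Agent.H380.Cod.ENum
import Cfsg.Agent.H137.TC7.Tor
import Cfsg.Agent.H417.CodCentral
import Cfsg.Agent.S2106

/-!
# The central case for `E₇(q)` (helper380, team S3539)
-/

set_option autoImplicit false

namespace Cfsg.Agent.H380.Cod.ESeven

open Cfsg Cfsg.Lie Subgroup Cfsg.Agent.H137.TC7 Cfsg.Agent.H378.ExcAdj Cfsg.Agent.H686.CharKit Cfsg.Agent.H850.Cod

universe u v

/-- **`E₇(q)`.** -/
theorem central_E7 (F : Type v) [Field F] [Fintype F] : CentralOK.{u} ↥(chevE7.group F) := by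
  intro G _ _ M _ e hp hM hprime h
  obtain ⟨q, hq⟩ : ∃ q, Fintype.card F = q := ⟨_, rfl⟩
  have hq2 : 2 ≤ q := by rw [← hq]; exact Fintype.one_lt_card
  have hne : NeZero (Nat.gcd 2 (q - 1)) := ⟨by
    have : 0 < Nat.gcd 2 (q - 1) := Nat.gcd_pos_of_pos_left _ (by norm_num)
    omega⟩
  have h1 := H417.CodCentral.card_dvd_mult (Cfsg.Agent.S2106.result hq) M e hp hM
  have hM2 : Nat.card M = 2 := (Nat.prime_dvd_prime_iff_eq hprime Nat.prime_two).1 (h1.trans (Nat.gcd_dvd_left _ _))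
  have h2q : 2 ∣ q - 1 := by
    rw [hM2] at h1
    exact h1.trans (Nat.gcd_dvd_right _ _)
  obtain ⟨i, h2, h3, ⟨b, hb, hcop⟩, X, hX, hX'⟩ : ∃ i : Fin 4, Odd (tv q i) ∧ 841 ≤ mv q i ∧
      (∃ b, tv q i = mv q i * b ∧ (mv q i).Coprime b) ∧
      ∃ X : ℕ, Nat.card ↥(chevE7.group F) = tv q i * X ∧ (mv q i : ℤ) ∣ (X : ℤ) - 14 := by
    rcases (show q % 4 = 1 ∨ q % 4 = 3 by omega) with h4 | h4
    · exact ⟨2, ENum.case1 hq h4 (by omega)⟩
    · exact ⟨0, ENum.case3 hq h4⟩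
  obtain ⟨T, t1, t2, t3⟩ := exists_T hq i
  rw [hb] at h2 t2 hX
  exact Central.central_two M e hM hM2 t1 (w := 14) t2 h2 hcop
    (fun r hr hrd y hy hyr => t3 r hr (od_of_mv hq2 hr hrd) y hy hyr) hX rfl (by exact_mod_cast hX') (by omega) h

end Cfsg.Agent.H380.Cod.ESeven
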