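import Mathlib

/-!
# Lifting an odd cyclic torus to a central extension by a group of order two (helper380, S3539)
-/

set_option autoImplicit false

namespace Cfsg.Agent.H380.Cod.Lift

open Subgroup

variable {G L : Type*} [Group G] [Finite G] [Group L] [Finite L] {M : Subgroup G} [M.Normal] (e : G ⧸ M ≃* L)

/-- the projection -/
def pr : G →* L := e.toMonoidHom.comp (QuotientGroup.mk' M)

theorem pr_surj : Function.Surjective (pr e) := e.surjective.comp (QuotientGroup.mk'_surjective M)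

theorem pr_eq_one {g : G} : pr e g = 1 ↔ g ∈ M := by
  show e (QuotientGroup.mk' M g) = 1 ↔ _
  rw [MulEquiv.map_eq_one_iff, QuotientGroup.mk'_apply, QuotientGroup.eq_one_iff]

/-- elements of odd order lift -/
theorem exists_lift (hM : Nat.card ↥M = 2) {t : L} {N : ℕ} (hN : Odd N) (ht : orderOf t = N) :
    ∃ u : G, orderOf u = N ∧ pr e u = t := by
  obtain ⟨g, rfl⟩ := pr_surj e t
  have h1 : g ^ N ∈ M := by
    rw [← pr_eq_one e, map_pow, ← ht, pow_orderOf_eq_one]
  have h2 : (g ^ N) ^ 2 = 1 := by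
    have := pow_card_eq_one' (x := (⟨g ^ N, h1⟩ : M))
    rw [hM] at this
    exact congrArg Subtype.val this
  obtain ⟨k, hk⟩ := hN
  refine ⟨g ^ (N + 1), ?_, ?_⟩
  · apply Nat.dvd_antisymm
    · rw [orderOf_dvd_iff_pow_eq_one, ← pow_mul, show (N + 1) * N = N * 2 * (k + 1) by rw [hk]; ring, pow_mul, pow_mul,
        h2, one_pow]
    · have h3 : orderOf (pr e (g ^ (N + 1))) ∣ orderOf (g ^ (N + 1)) := orderOf_map_dvd _ _
      have h4 : pr e (g ^ (N + 1)) = pr e g := by
        rw [map_pow, pow_succ, ← ht, pow_orderOf_eq_one, one_mul]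
      rwa [h4, ht] at h3
  · rw [map_pow, pow_succ, ← ht, pow_orderOf_eq_one, one_mul]

theorem orderOf_pr_dvd (g : G) : orderOf (pr e g) ∣ orderOf g := orderOf_map_dvd _ _

/-- elements of odd prime order keep their order -/
theorem orderOf_pr (hM : Nat.card ↥M = 2) {y : G} {r : ℕ} (hr : r.Prime) (hr2 : r ≠ 2) (hy : orderOf y = r) :
    orderOf (pr e y) = r := by
  rcases (Nat.dvd_prime hr).1 (hy ▸ orderOf_pr_dvd e y) with h | h
  · exfalso
    rw [orderOf_eq_one_iff, pr_eq_one] at h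
    have h1 : orderOf (⟨y, h⟩ : M) ∣ 2 := by rw [← hM]; exact orderOf_dvd_natCard _
    rw [Subgroup.orderOf_mk, hy] at h1
    exact hr2 ((Nat.prime_dvd_prime_iff_eq hr Nat.prime_two).1 h1)
  · exact h

/-- the preimage of a torus -/
def Cb (T : Subgroup L) : Subgroup G := T.comap (pr e)

theorem mem_Cb {T : Subgroup L} {g : G} : g ∈ Cb e T ↔ pr e g ∈ T := Iff.rfl

theorem card_Cb (hM : Nat.card ↥M = 2) (T : Subgroup L) : Nat.card ↥(Cb e T) = 2 * Nat.card ↥T := by
  have h1 := Subgroup.index_comap_of_surjective T (pr_surj e)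
  have h2 := Subgroup.card_mul_index (Cb e T)
  have h3 := Subgroup.card_mul_index T
  have h4 : Nat.card G = 2 * Nat.card L := by
    rw [Subgroup.card_eq_card_quotient_mul_card_subgroup M, hM, Nat.card_congr e.toEquiv, mul_comm]
  have h5 : (Cb e T).index = T.index := h1
  rw [h5, h4, ← h3, ← mul_assoc] at h2
  exact Nat.eq_of_mul_eq_mul_right (Nat.pos_of_ne_zero T.index_ne_zero_of_finite) h2

theorem comm_Cb (hM : M ≤ center G) {T : Subgroup L} (hT : IsCyclic ↥T) {a b : G} (ha : a ∈ Cb e T) (hb : b ∈ Cb e T) :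
    a * b = b * a := by
  obtain ⟨⟨t, ht⟩, hgen⟩ := hT.exists_generator
  obtain ⟨u, rfl⟩ := pr_surj e t
  have key : ∀ a ∈ Cb e T, ∃ (i : ℤ) (z : G), z ∈ M ∧ a = u ^ i * z := by
    intro a ha
    obtain ⟨i, hi⟩ := hgen ⟨pr e a, ha⟩
    have hi' : (pr e u) ^ i = pr e a := congrArg Subtype.val hi
    refine ⟨i, (u ^ i)⁻¹ * a, ?_, by group⟩
    rw [← pr_eq_one e, map_mul, map_inv, map_zpow, hi', inv_mul_cancel]
  obtain ⟨i, z, hz, rfl⟩ := key a ha
  obtain ⟨j, z', hz', rfl⟩ := key b hb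
  have c1 : ∀ x, z * x = x * z := fun x => ((mem_center_iff.1 (hM hz)) x).symm
  have c2 : ∀ x, z' * x = x * z' := fun x => ((mem_center_iff.1 (hM hz')) x).symm
  calc u ^ i * z * (u ^ j * z') = u ^ i * (z * u ^ j) * z' := by group
    _ = u ^ i * u ^ j * (z * z') := by rw [c1]; group
    _ = u ^ j * u ^ i * (z' * z) := by rw [← zpow_add, add_comm, zpow_add, c1]
    _ = u ^ j * (u ^ i * z') * z := by group
    _ = u ^ j * z' * (u ^ i * z) := by rw [← c2]; group

/-- centralisers in the extension -/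
theorem cent_le (hM : Nat.card ↥M = 2) {T : Subgroup L} {r : ℕ} (hr : r.Prime) (hr2 : r ≠ 2)
    (hc : ∀ y ∈ T, orderOf y = r → centralizer {y} ≤ T) {y : G} (hy : y ∈ Cb e T) (hyr : orderOf y = r) :
    centralizer {y} ≤ Cb e T := by
  intro g hg
  rw [mem_Cb]
  refine hc _ hy (orderOf_pr e hM hr hr2 hyr) ?_
  rw [mem_centralizer_singleton_iff] at hg ⊢
  rw [← map_mul, ← map_mul, hg]

end Cfsg.Agent.H380.Cod.Lift
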