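import Mathlib

/-!
# Integer functions with small variation on the fibres of a product (helper380, S3539)

`μ : X → J → ℤ` with `∑ y, (n ∑ x, μ² - (∑ x, μ)²) ≤ w n`, `n = |X| > 4 w (w + 1)`, invariant under a family of pairs
of maps of `X` and `J` with orbits of length at least `w` on `X ∖ {x0}`:

`dich` : either all differences `∑ y, (μ x0 y - μ x y)`, `x ≠ x0`, are equal to one `K` with `|K| ≤ w`, or they are
non-zero only on one orbit; and the total sum is small modulo `n`.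
-/

set_option autoImplicit false

namespace Cfsg.Agent.H380.Cod.Mode

open Finset

/-- one fibre -/
theorem mode_one {X : Type*} [Fintype X] [DecidableEq X] (f : X → ℤ) {n w : ℕ} (hn : Fintype.card X = n) (hn0 : 0 < n)
    (hV : (n : ℤ) * ∑ x, f x ^ 2 - (∑ x, f x) ^ 2 ≤ w * n) :
    ∃ c : ℤ, ((univ.filter fun x => f x ≠ c).card : ℤ) ≤ 4 * w ∧
      ((n : ℤ) - (univ.filter fun x => f x ≠ c).card) * ∑ x, (f x - c) ^ 2 ≤
        (n : ℤ) * ∑ x, f x ^ 2 - (∑ x, f x) ^ 2 := by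
  have hn0' : (0 : ℤ) < n := by exact_mod_cast hn0
  set A : ℤ := ∑ x, f x with hA
  -- the rounded mean
  obtain ⟨c, hc1, hc2⟩ : ∃ c : ℤ, 2 * (A - n * c) ≤ n ∧ -(n : ℤ) ≤ 2 * (A - n * c) := by
    refine ⟨(2 * A + n) / (2 * n), ?_, ?_⟩
    · have h1 := Int.emod_nonneg (2 * A + n) (show (2 * (n : ℤ)) ≠ 0 by positivity)
      have h2 := Int.emod_lt_of_pos (2 * A + n) (show (0 : ℤ) < 2 * n by positivity)
      have h3 := Int.emod_add_mul_ediv (2 * A + n) (2 * n)
      nlinarith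
    · have h1 := Int.emod_nonneg (2 * A + n) (show (2 * (n : ℤ)) ≠ 0 by positivity)
      have h3 := Int.emod_add_mul_ediv (2 * A + n) (2 * n)
      nlinarith
  refine ⟨c, ?_, ?_⟩
  · -- the values different from `c`
    have h1 : ∑ x, ((n : ℤ) * f x - A) ^ 2 = n * ((n : ℤ) * ∑ x, f x ^ 2 - A ^ 2) := by
      have e1 : ∀ x, ((n : ℤ) * f x - A) ^ 2 = (n : ℤ) ^ 2 * f x ^ 2 - 2 * n * A * f x + A ^ 2 := fun x => by ring
      rw [sum_congr rfl fun x _ => e1 x, sum_add_distrib, sum_sub_distrib, ← mul_sum, ← mul_sum, sum_const, card_univ,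
        hn, ← hA, nsmul_eq_mul]
      ring
    have h2 : ((univ.filter fun x => f x ≠ c).card : ℤ) * (n : ℤ) ^ 2 ≤ 4 * ∑ x, ((n : ℤ) * f x - A) ^ 2 := by
      have h3 : ∑ x ∈ univ.filter (fun x => f x ≠ c), (n : ℤ) ^ 2 ≤
          ∑ x ∈ univ.filter (fun x => f x ≠ c), 4 * ((n : ℤ) * f x - A) ^ 2 := by
        refine sum_le_sum fun x hx => ?_
        have h4 : f x ≠ c := (mem_filter.1 hx).2
        rcases lt_or_gt_of_ne h4 with h5 | h5
        · have h6 : f x ≤ c - 1 := by omega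
          have h7 : 2 * ((n : ℤ) * f x - A) ≤ -n := by nlinarith
          nlinarith
        · have h6 : c + 1 ≤ f x := by omega
          have h7 : (n : ℤ) ≤ 2 * ((n : ℤ) * f x - A) := by nlinarith
          nlinarith
      rw [sum_const, nsmul_eq_mul] at h3
      refine h3.trans ?_
      rw [mul_sum]
      exact sum_le_sum_of_subset_of_nonneg (filter_subset _ _) fun x _ _ => by positivity
    rw [h1] at h2
    have h3 : ((univ.filter fun x => f x ≠ c).card : ℤ) * (n : ℤ) ^ 2 ≤ 4 * w * (n : ℤ) ^ 2 := by nlinarith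
    exact le_of_mul_le_mul_right h3 (by positivity)
  · -- translate
    set D := univ.filter fun x => f x ≠ c with hD
    have e1 : (n : ℤ) * ∑ x, f x ^ 2 - A ^ 2 = n * ∑ x, (f x - c) ^ 2 - (∑ x, (f x - c)) ^ 2 := by
      have e2 : ∑ x, (f x - c) = A - n * c := by
        rw [sum_sub_distrib, sum_const, card_univ, hn, nsmul_eq_mul]
      have e3 : ∑ x, (f x - c) ^ 2 = ∑ x, f x ^ 2 - 2 * c * A + n * c ^ 2 := by
        have e4 : ∀ x, (f x - c) ^ 2 = f x ^ 2 - 2 * c * f x + c ^ 2 := fun x => by ring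
        rw [sum_congr rfl fun x _ => e4 x, sum_add_distrib, sum_sub_distrib, ← mul_sum, sum_const, card_univ, hn,
          nsmul_eq_mul]
      rw [e2, e3]
      ring
    rw [e1]
    have h1 : ∑ x, (f x - c) = ∑ x ∈ D, (f x - c) := by
      refine (sum_subset (subset_univ _) fun x _ hx => ?_).symm
      by_contra h
      exact hx (mem_filter.2 ⟨mem_univ _, fun h2 => h (by rw [h2]; ring)⟩)
    have h2 : ∑ x, (f x - c) ^ 2 = ∑ x ∈ D, (f x - c) ^ 2 := by
      refine (sum_subset (subset_univ _) fun x _ hx => ?_).symm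
      by_contra h
      exact hx (mem_filter.2 ⟨mem_univ _, fun h2 => h (by rw [h2]; ring)⟩)
    have h3 : (∑ x ∈ D, (f x - c)) ^ 2 ≤ D.card * ∑ x ∈ D, (f x - c) ^ 2 := sq_sum_le_card_mul_sum_sq
    rw [h1, h2]
    nlinarith

/-- all fibres -/
theorem mode_all {X J : Type*} [Fintype X] [DecidableEq X] [Fintype J] (μ : X → J → ℤ) {n w : ℕ}
    (hn : Fintype.card X = n) (hn0 : 0 < n) (hnw : 4 * w * (w + 1) < n)
    (hV : ∑ y, ((n : ℤ) * ∑ x, μ x y ^ 2 - (∑ x, μ x y) ^ 2) ≤ w * n) :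
    ∃ c : J → ℤ, ∑ y, ∑ x, (μ x y - c y) ^ 2 ≤ (w : ℤ) := by
  have hnn : ∀ y, 0 ≤ (n : ℤ) * ∑ x, μ x y ^ 2 - (∑ x, μ x y) ^ 2 := by
    intro y
    have h := sq_sum_le_card_mul_sum_sq (s := (univ : Finset X)) (f := fun x => μ x y)
    rw [card_univ, hn] at h
    linarith
  have hone : ∀ y, (n : ℤ) * ∑ x, μ x y ^ 2 - (∑ x, μ x y) ^ 2 ≤ w * n := fun y =>
    le_trans (single_le_sum (f := fun y => (n : ℤ) * ∑ x, μ x y ^ 2 - (∑ x, μ x y) ^ 2)
      (fun y _ => hnn y) (mem_univ y)) hV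
  choose c hc1 hc2 using fun y => mode_one (fun x => μ x y) hn hn0 (hone y)
  refine ⟨c, ?_⟩
  by_contra hcon
  rw [not_le] at hcon
  have h1 : ∀ y, ((n : ℤ) - 4 * w) * ∑ x, (μ x y - c y) ^ 2 ≤ (n : ℤ) * ∑ x, μ x y ^ 2 - (∑ x, μ x y) ^ 2 := by
    intro y
    refine le_trans (mul_le_mul_of_nonneg_right ?_ (sum_nonneg fun x _ => sq_nonneg _)) (hc2 y)
    have := hc1 y
    linarith
  have h2 : ((n : ℤ) - 4 * w) * ∑ y, ∑ x, (μ x y - c y) ^ 2 ≤ w * n := by
    rw [mul_sum]
    exact le_trans (sum_le_sum fun y _ => h1 y) hV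
  have h3 : (4 * w * (w + 1) : ℤ) < n := by exact_mod_cast hnw
  have h5 : (0 : ℤ) ≤ w := by positivity
  have h6 : (0 : ℤ) ≤ n - 4 * w := by nlinarith
  have h7 : ((n : ℤ) - 4 * w) * (w + 1) ≤ ((n : ℤ) - 4 * w) * ∑ y, ∑ x, (μ x y - c y) ^ 2 :=
    mul_le_mul_of_nonneg_left (by omega) h6
  nlinarith

theorem one_le_sq {z : ℤ} (h : z ≠ 0) : 1 ≤ z ^ 2 := by
  have := sq_pos_of_ne_zero h
  omega

theorem abs_le_sq (z : ℤ) : |z| ≤ z ^ 2 := by
  rcases eq_or_ne z 0 with rfl | h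
  · simp
  · have h1 : 1 ≤ |z| := Int.one_le_abs h
    rw [← sq_abs z]
    nlinarith

/-- **The dichotomy.** -/
theorem dich {X J S : Type*} [Fintype X] [DecidableEq X] [Fintype J] [Fintype S] (a : S → X → X) (b : S → J → J) {x0 : X}
    (ha : ∀ s, Function.Surjective (a s)) (ha0 : ∀ s x, x ≠ x0 → a s x ≠ x0) {w : ℕ}
    (horb : ∀ x, x ≠ x0 → w ≤ (univ.image fun s => a s x).card) (hw1 : 1 ≤ w) (μ : X → J → ℤ)
    (hinv : ∀ (s : S) (x : X) (y : J), μ (a s x) (b s y) = μ x y) {n : ℕ} (hn : Fintype.card X = n)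
    (hnw : 4 * w * (w + 1) < n)
    (hV : ∑ y, ((n : ℤ) * ∑ x, μ x y ^ 2 - (∑ x, μ x y) ^ 2) ≤ w * n) :
    ∃ K : ℤ, |K| ≤ w ∧ (n : ℤ) ∣ ∑ y, ∑ x, μ x y - K ∧
      ((∀ x, x ≠ x0 → ∑ y, (μ x0 y - μ x y) = K) ∨
        ((K = w ∨ K = -w) ∧ ∀ x x', x ≠ x0 → x' ≠ x0 → ∑ y, (μ x0 y - μ x y) ≠ 0 → ∑ y, (μ x0 y - μ x' y) ≠ 0 →
          ∃ (z : X) (s s' : S), a s z = x ∧ a s' z = x')) := by
  classical
  have hn0 : 0 < n := lt_of_le_of_lt (Nat.zero_le _) hnw
  have hn2 : 2 * w < n := by nlinarith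
  obtain ⟨c, hc⟩ := mode_all μ hn hn0 hnw hV
  set g : X → J → ℤ := fun x y => μ x y - c y with hg
  -- the number of deviating elements in a fibre
  have hfib : ∀ y, ((univ.filter fun x => μ x y ≠ c y).card : ℤ) ≤ w := by
    intro y
    have h1 : ((univ.filter fun x => μ x y ≠ c y).card : ℤ) ≤ ∑ x ∈ univ.filter (fun x => μ x y ≠ c y), (g x y) ^ 2 := by
      rw [Finset.card_eq_sum_ones, Nat.cast_sum]
      refine sum_le_sum fun x hx => ?_
      rw [Nat.cast_one]
      exact one_le_sq (sub_ne_zero.2 (mem_filter.1 hx).2)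
    refine h1.trans (le_trans ?_ hc)
    refine le_trans (sum_le_sum_of_subset_of_nonneg (filter_subset _ _) fun x _ _ => sq_nonneg _) ?_
    exact single_le_sum (f := fun y => ∑ x, (μ x y - c y) ^ 2) (fun y _ => sum_nonneg fun x _ => sq_nonneg _)
      (mem_univ y)
  have hcinv : ∀ (s : S) (y : J), c (b s y) = c y := by
    intro s y
    by_contra hne
    have h1 : (univ : Finset X) ⊆ (univ.filter fun x => μ x y ≠ c y).image (a s) ∪
        univ.filter fun x => μ x (b s y) ≠ c (b s y) := by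
      intro x _
      by_cases h2 : μ x (b s y) = c (b s y)
      · obtain ⟨x', rfl⟩ := ha s x
        refine mem_union_left _ (mem_image.2 ⟨x', mem_filter.2 ⟨mem_univ _, ?_⟩, rfl⟩)
        rw [hinv] at h2
        rw [h2]
        exact hne
      · exact mem_union_right _ (mem_filter.2 ⟨mem_univ _, h2⟩)
    have h2 := card_le_card h1
    have h3 := (h2.trans (card_union_le _ _)).trans (Nat.add_le_add_right card_image_le _)
    rw [card_univ, hn] at h3
    have h4 := hfib y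
    have h5 := hfib (b s y)
    have h6 : (n : ℤ) ≤ (univ.filter fun x => μ x y ≠ c y).card + (univ.filter fun x => μ x (b s y) ≠ c (b s y)).card := by
      exact_mod_cast h3
    omega
  have hginv : ∀ (s : S) x y, g (a s x) (b s y) = g x y := fun s x y => by
    show μ (a s x) (b s y) - c (b s y) = _
    rw [hinv, hcinv]
  -- the sums
  have hsum : ∑ y, ∑ x, μ x y = n * ∑ y, c y + ∑ y, ∑ x, g x y := by
    have h1 : ∀ y, ∑ x, μ x y = n * c y + ∑ x, g x y := by
      intro y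
      simp only [hg]
      rw [sum_sub_distrib, sum_const, card_univ, hn, nsmul_eq_mul]
      ring
    rw [sum_congr rfl fun y _ => h1 y, sum_add_distrib, ← mul_sum]
  have hE : ∑ p : X × J, (g p.1 p.2) ^ 2 ≤ (w : ℤ) := by
    rw [Fintype.sum_prod_type_right]
    exact hc
  by_cases hcase : ∀ x y, x ≠ x0 → g x y = 0
  · -- the non-exceptional case
    have hK : ∀ y, ∑ x, g x y = g x0 y := fun y =>
      Fintype.sum_eq_single x0 fun x hx => hcase x y hx
    refine ⟨∑ y, g x0 y, ?_, ?_, Or.inl ?_⟩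
    · calc |∑ y, g x0 y| ≤ ∑ y, |g x0 y| := abs_sum_le_sum_abs _ _
        _ ≤ ∑ y, (g x0 y) ^ 2 := sum_le_sum fun y _ => abs_le_sq _
        _ ≤ ∑ y, ∑ x, (g x y) ^ 2 := sum_le_sum fun y _ =>
            single_le_sum (f := fun x => (g x y) ^ 2) (fun x _ => sq_nonneg _) (mem_univ x0)
        _ ≤ w := hc
    · rw [hsum, sum_congr rfl fun y _ => hK y, add_sub_cancel_right]
      exact dvd_mul_right _ _
    · intro x hx
      refine sum_congr rfl fun y _ => ?_
      have h1 := hcase x y hx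
      simp only [hg] at h1 ⊢
      linarith
  · -- the exceptional case
    push Not at hcase
    obtain ⟨x1, y1, hx1, hg1⟩ := hcase
    have hx1s : ∀ s : S, a s x1 ≠ x0 := fun s => ha0 s x1 hx1
    set O : Finset (X × J) := univ.image fun s : S => (a s x1, b s y1) with hO
    have hOc' : w ≤ O.card := by
      refine (horb x1 hx1).trans ?_
      have h1 : (univ.image fun s : S => a s x1) = O.image Prod.fst := by
        rw [hO, image_image]
        rfl
      rw [h1]
      exact card_image_le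
    have hgO : ∀ p ∈ O, g p.1 p.2 = g x1 y1 := by
      intro p hp
      obtain ⟨s, -, rfl⟩ := mem_image.1 hp
      exact hginv s x1 y1
    -- all deviations are in the orbit, and have value `± 1`
    have h1 : ∑ p ∈ O, (g p.1 p.2) ^ 2 = O.card * (g x1 y1) ^ 2 := by
      rw [sum_congr rfl fun p hp => by rw [hgO p hp], sum_const, nsmul_eq_mul]
    have h2 : ∑ p ∈ O, (g p.1 p.2) ^ 2 + ∑ p ∈ univ \ O, (g p.1 p.2) ^ 2 = ∑ p : X × J, (g p.1 p.2) ^ 2 := by
      rw [add_comm, sum_sdiff (subset_univ _)]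
    have h3 := one_le_sq hg1
    have h4 : 0 ≤ ∑ p ∈ univ \ O, (g p.1 p.2) ^ 2 := sum_nonneg fun p _ => sq_nonneg _
    have hw1' : (1 : ℤ) ≤ w := by exact_mod_cast hw1
    have hOw : (w : ℤ) ≤ O.card := by exact_mod_cast hOc'
    have h5 : ∑ p ∈ univ \ O, (g p.1 p.2) ^ 2 = 0 := by nlinarith
    have h6 : (g x1 y1) ^ 2 = 1 := by nlinarith
    have hOc : (O.card : ℤ) = w := by
      rw [h6] at h1
      linarith
    have h7 : ∀ p, p ∉ O → g p.1 p.2 = 0 := by
      intro p hp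
      have h8 := (sum_eq_zero_iff_of_nonneg fun p _ => sq_nonneg (g p.1 p.2)).1 h5 p
        (mem_sdiff.2 ⟨mem_univ _, hp⟩)
      exact pow_eq_zero_iff (two_ne_zero) |>.1 h8
    have h0 : ∀ y, g x0 y = 0 := by
      intro y
      refine h7 (x0, y) fun h => ?_
      obtain ⟨s, -, hs⟩ := mem_image.1 h
      exact hx1s s (congrArg Prod.fst hs)
    have hd : g x1 y1 = 1 ∨ g x1 y1 = -1 := by
      have h9 : (g x1 y1 - 1) * (g x1 y1 + 1) = 0 := by nlinarith
      rcases mul_eq_zero.1 h9 with h | h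
      · left; omega
      · right; omega
    have htot : ∑ y, ∑ x, g x y = w * g x1 y1 := by
      rw [← Fintype.sum_prod_type_right (f := fun p : X × J => g p.1 p.2)]
      rw [← sum_subset (subset_univ O) fun p _ hp => h7 p hp, sum_congr rfl fun p hp => hgO p hp, sum_const,
        nsmul_eq_mul, hOc]
    refine ⟨w * g x1 y1, ?_, ?_, Or.inr ⟨?_, ?_⟩⟩
    · rcases hd with h | h <;> rw [h] <;> simp
    · rw [hsum, htot, add_sub_cancel_right]
      exact dvd_mul_right _ _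
    · rcases hd with h | h <;> rw [h] <;> simp
    · have key : ∀ x, x ≠ x0 → ∑ y, (μ x0 y - μ x y) ≠ 0 → ∃ s : S, a s x1 = x := by
        intro x _ hx
        obtain ⟨y, -, hy⟩ := exists_ne_zero_of_sum_ne_zero hx
        have h8 : g x y ≠ 0 := by
          intro h9
          apply hy
          have h10 := h0 y
          simp only [hg] at h9 h10
          linarith
        have h9 : (x, y) ∈ O := by
          by_contra h10
          exact h8 (h7 (x, y) h10)
        obtain ⟨s, -, hs⟩ := mem_image.1 h9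
        exact ⟨s, congrArg Prod.fst hs⟩
      intro x x' hx hx' h8 h9
      obtain ⟨s, hs⟩ := key x hx h8
      obtain ⟨s', hs'⟩ := key x' hx' h9
      exact ⟨x1, s, s', hs, hs'⟩

end Cfsg.Agent.H380.Cod.Mode
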